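import Cfsg.Agent.H6.Fi23b1
set_option maxRecDepth 100000
namespace Cfsg.Agent.H6.Fi
open Cfsg.Agent.H6

noncomputable abbrev H23 : Subgroup Spor.Fi23 := cl gFi23 (lw [0,1,2,3,4,5,6,7,8])
noncomputable abbrev Z23 : Subgroup H23 := (Subgroup.zpowers (wp gFi23 dFi23)).subgroupOf H23

theorem H23_eq : H23 = MulAction.stabilizer Spor.Fi23 (finX 31671 0) := stabFi23
theorem Z23_le : Z23 ≤ Subgroup.center H23 := zpowers_subgroupOf_le_center fun x hx => cmFi23 x (H23_eq ▸ hx)
instance instZ23 : Z23.Normal := normal_of_le_center Z23_le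
theorem d23_mem : wp gFi23 dFi23 ∈ H23 := wp_mem_lw (by decide +kernel)
theorem cardZ23 : Nat.card Z23 = 2 := by
  rw [card_subgroupOf' (Subgroup.zpowers_le.2 d23_mem), Nat.card_zpowers, ordFi23]
theorem cardH23 : Nat.card H23 = 129123503308800 := cstabFi23

noncomputable def q23 (l : ℕ) : H23 ⧸ Z23 := QuotientGroup.mk' Z23 (subG gFi23 H23 l)

theorem satq23 : Sat io RFi22 q23 := by
  refine satFi23.nil.sec (kl := [0,1,2,3,4,5,6,7,8]) le_rfl (by decide +kernel) fun r hr => ?_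
  have := (lall_eq (fun r => bor (eqvFi23 r []) (eqvFi23 r dFi23)) RFi22).1 (by decide +kernel) r hr
  rcases (bor_eq _ _).1 this with e | e <;> rw [heqFi23 _ _ e]
  · exact Subgroup.one_mem _
  · exact Subgroup.mem_zpowers _

theorem bd22 : Bound.{0} io RFi22 [0,1,2,3,4,5,6,7,8] 64561751654400 := fun G _ g s => by
  have h1 : cl g (lw [0,1,2,3,4,5,6,7,8]) = (⊤ : Subgroup Spor.Fi22).map (presHom hRFi22 s) := by
    rw [← topFi22, map_cl]
    refine le_antisymm (cl_lw_le.2 fun l hl => ?_) (cl_lw_le.2 fun l hl => ?_)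
    all_goals
      have e : presHom hRFi22 s (gFi22 l) = g l := by
        simp only [List.mem_cons, List.not_mem_nil, or_false] at hl
        rcases hl with rfl | rfl | rfl | rfl | rfl | rfl | rfl | rfl | rfl <;> exact PresentedGroup.toGroup.of _
    · rw [← e]; exact gen_mem_lw (gens := fun l => presHom hRFi22 s (gFi22 l)) hl
    · rw [e]; exact gen_mem_lw hl
  rw [h1]
  exact ⟨(card_map_le' _ _).1, (card_map_le' _ _).2.trans (by rw [Subgroup.card_top, cardFi22])⟩

theorem topq23 : cl q23 (lw [0,1,2,3,4,5,6,7,8]) = ⊤ := cl_quot_top (cl_subG rfl) _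

theorem equiv23 : ∃ e : H23 ⧸ Z23 ≃* Spor.Fi22, ∀ w, wok (tb (mkM [0,1,2,3,4,5,6,7,8])) w = true →
    e (wp q23 w) = wp gFi22 w := by
  obtain ⟨φ, a, b⟩ := bd22.homTop satq23 satFi22 topq23
    (card_quot_eq (cardH23.trans (by norm_num)) cardZ23 (by norm_num)).ge
  obtain ⟨e, he⟩ := equiv_of_hom_range φ (a.trans topFi22)
    (by rw [Subgroup.card_top, cardFi22, card_quot_eq (n := 64561751654400) (cardH23.trans (by norm_num)) cardZ23 (by norm_num)])
  exact ⟨e.trans Subgroup.topEquiv, fun w hw => (he _).trans (b w hw)⟩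

theorem center22 : Subgroup.center Spor.Fi22 = ⊥ := @center_eq_bot_of_perfect _ _ simpleFi22 perfFi22
theorem center23 : Subgroup.center Spor.Fi23 = ⊥ := @center_eq_bot_of_perfect _ _ simpleFi23 perfFi23

theorem cover23 : IsNonsplitDoubleCover H23 Spor.Fi22 :=
  nonsplit_of perfH23 Z23_le cardZ23 equiv23.choose center22

theorem ttc22 : IsThreeTranspositionClass (conjugatesOf (wp gFi22 dFi22)) :=
  ⟨ttFi22, ⟨_, IsConj.refl _, rfl⟩, (closure_conj _).trans (ncldFi22 rfl)⟩
theorem ttc23 : IsThreeTranspositionClass (conjugatesOf (wp gFi23 dFi23)) :=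
  ⟨ttFi23, ⟨_, IsConj.refl _, rfl⟩, (closure_conj _).trans (ncldFi23 rfl)⟩
theorem cardD22 : Nat.card (conjugatesOf (wp gFi22 dFi22)) = 3510 := by
  rw [card_conjugatesOf, index_of_stab centFi22 norbFi22]
theorem cardD23 : Nat.card (conjugatesOf (wp gFi23 dFi23)) = 31671 := by
  rw [card_conjugatesOf, index_of_stab centFi23 norbFi23]

end Cfsg.Agent.H6.Fi
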