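/- Critical groups isospectral to a direct product of Frobenius groups. -/
import Mathlib
namespace Cfsg.Agent.H6.FrP

def PS (p : ℕ) (G : Type*) [Group G] : Prop := ∀ x y : G, x ^ p = 1 → y ^ p = 1 → (x * y) ^ p = 1

theorem eq_one_of {G : Type*} [Group G] {x : G} {a b : ℕ} (h : a.Coprime b) (ha : x ^ a = 1) (hb : x ^ b = 1) : x = 1 :=
  orderOf_eq_one_iff.1 (Nat.eq_one_of_dvd_coprimes h (orderOf_dvd_of_pow_eq_one ha) (orderOf_dvd_of_pow_eq_one hb))

def aff (F : Type) [Field F] (q : ℕ) (hq : q ≠ 0) : Subgroup (Equiv.Perm F) where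
  carrier := {σ | ∃ u a : F, u ^ q = 1 ∧ ∀ x, σ x = u * x + a}
  one_mem' := ⟨1, 0, one_pow _, fun x => by simp⟩
  mul_mem' := by
    rintro σ τ ⟨u, a, hu, h⟩ ⟨v, b, hv, k⟩
    exact ⟨u * v, u * b + a, by rw [mul_pow, hu, hv, one_mul], fun x => by rw [Equiv.Perm.mul_apply, h, k]; ring⟩
  inv_mem' := by
    rintro σ ⟨u, a, hu, h⟩
    have h0 : u ≠ 0 := by rintro rfl; rw [zero_pow hq] at hu; exact zero_ne_one hu
    refine ⟨u⁻¹, -(u⁻¹ * a), by rw [inv_pow, hu, inv_one], fun x => ?_⟩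
    rw [Equiv.Perm.inv_eq_iff_eq, h]; field_simp; ring

theorem tr_pow {F : Type} [Field F] {σ : Equiv.Perm F} {a : F} (h : ∀ x, σ x = x + a) (n : ℕ) (x : F) :
    (σ ^ n) x = x + n * a := by
  induction n with
  | zero => simp
  | succ n ih => rw [pow_succ', Equiv.Perm.mul_apply, ih, h]; push_cast; ring

theorem hom_pow {F : Type} [Field F] {σ : Equiv.Perm F} {u c : F} (h : ∀ x, σ x = u * (x - c) + c) (n : ℕ) (x : F) :
    (σ ^ n) x = u ^ n * (x - c) + c := by
  induction n with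
  | zero => simp
  | succ n ih => rw [pow_succ', Equiv.Perm.mul_apply, ih, h]; ring

theorem frob {p q : ℕ} (hp : p.Prime) (hq : q.Prime) (hne : p ≠ q) : ∃ (G : Type) (_ : Group G) (_ : Finite G),
    (∀ g : G, g ^ p = 1 ∨ g ^ q = 1) ∧ (∃ g : G, orderOf g = p) ∧ (∃ g : G, orderOf g = q) ∧ PS p G := by
  haveI := Fact.mk hp
  haveI := Fact.mk hq
  have hc : p.Coprime q := (Nat.coprime_primes hp hq).2 hne
  have hq1 : q - 1 ≠ 0 := by have := hq.two_le; omega
  let F := GaloisField p (q - 1)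
  have key : ∀ g : aff F q hq.ne_zero, (∃ a, ∀ x, g.1 x = x + a) ∨ g ^ q = 1 := by
    rintro ⟨σ, u, a, hu, h⟩
    by_cases e : u = 1
    · exact .inl ⟨a, fun x => by rw [h, e, one_mul]⟩
    · right
      have h1 : 1 - u ≠ 0 := sub_ne_zero.2 (Ne.symm e)
      refine Subtype.ext (Equiv.ext fun x => ?_)
      show (σ ^ q) x = x
      have h2 : a / (1 - u) * (1 - u) = a := div_mul_cancel₀ _ h1
      rw [hom_pow (u := u) (c := a / (1 - u)) (fun x => by rw [h]; linear_combination -h2), hu]; ring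
  have tr : ∀ g : aff F q hq.ne_zero, (∃ a, ∀ x, g.1 x = x + a) → g ^ p = 1 := by
    rintro ⟨σ, hσ⟩ ⟨a, h⟩
    refine Subtype.ext (Equiv.ext fun x => ?_)
    show (σ ^ p) x = x
    rw [tr_pow h, CharP.cast_eq_zero F p]; ring
  have tr2 : ∀ g : aff F q hq.ne_zero, g ^ p = 1 → ∃ a, ∀ x, g.1 x = x + a := fun g h =>
    (key g).elim id fun k => ⟨0, fun x => by rw [eq_one_of hc h k]; simp⟩
  refine ⟨aff F q hq.ne_zero, inferInstance, inferInstance, fun g => (key g).imp (tr g) id, ?_, ?_, fun x y hx hy => ?_⟩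
  · refine ⟨⟨Equiv.addRight 1, 1, 1, one_pow _, fun x => by simp⟩, orderOf_eq_prime (tr _ ⟨1, fun x => by simp⟩) fun h => ?_⟩
    have := congrArg (fun g : aff F q hq.ne_zero => g.1 0) h
    simp at this
  · have hd : q ∣ Nat.card Fˣ := by
      rw [Nat.card_units, GaloisField.card p _ hq1]
      have := Nat.ModEq.pow_totient hc
      rw [Nat.totient_prime hq] at this
      exact (Nat.modEq_iff_dvd' (Nat.one_le_pow _ _ hp.pos)).1 this.symm
    obtain ⟨u, hu⟩ := exists_prime_orderOf_dvd_card' q hd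
    have h1 : (u : F) ^ q = 1 := by
      rw [← Units.val_pow_eq_pow_val, orderOf_dvd_iff_pow_eq_one.1 (dvd_of_eq hu), Units.val_one]
    refine ⟨⟨Equiv.mulLeft₀ (u : F) u.ne_zero, u, 0, h1, fun x => by simp⟩, orderOf_eq_prime (Subtype.ext (Equiv.ext fun x => ?_)) fun h => ?_⟩
    · show ((Equiv.mulLeft₀ (u : F) u.ne_zero) ^ q) x = x
      rw [hom_pow (u := (u : F)) (c := 0) (fun x => by simp), h1]; ring
    · have := congrArg (fun g : aff F q hq.ne_zero => g.1 1) h
      simp only [Equiv.mulLeft₀_apply, mul_one, OneMemClass.coe_one, Equiv.Perm.coe_one, id_eq, Units.val_eq_one] at this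
      rw [this, orderOf_one] at hu
      exact hq.one_lt.ne hu
  · obtain ⟨a, ha⟩ := tr2 x hx
    obtain ⟨b, hb⟩ := tr2 y hy
    exact tr _ ⟨b + a, fun z => by rw [Subgroup.coe_mul, Equiv.Perm.mul_apply, ha, hb, add_assoc]⟩

theorem PS.sec {G : Type*} [Group G] {p m : ℕ} (hp : 1 < p) (hm : m.Coprime p) (he : ∀ x : G, x ^ (m * p) = 1) (h : PS p G)
    (H : Subgroup G) (N : Subgroup H) [N.Normal] : PS p (H ⧸ N) := by
  intro x y hx hy
  obtain ⟨k, -, hk⟩ := Nat.exists_mul_mod_eq_one_of_coprime hm hp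
  obtain ⟨x, rfl⟩ := QuotientGroup.mk_surjective x
  obtain ⟨y, rfl⟩ := QuotientGroup.mk_surjective y
  have a : ∀ z : H, (z : H ⧸ N) ^ p = 1 → (z : H ⧸ N) = ((z ^ (m * k) : H) : H ⧸ N) := fun z hz => by
    rw [QuotientGroup.mk_pow, pow_eq_pow_mod _ hz, hk, pow_one]
  have b : ∀ z : H, ((z ^ (m * k) : H) : G) ^ p = 1 := fun z => by
    rw [Subgroup.coe_pow, ← pow_mul, mul_right_comm, pow_mul, he, one_pow]
  have c : (x ^ (m * k) * y ^ (m * k) : H) ^ p = 1 := Subtype.ext (h _ _ (b x) (b y))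
  rw [a x hx, a y hy, ← QuotientGroup.mk_mul, ← QuotientGroup.mk_pow, c, QuotientGroup.mk_one]

def PS.sub {G : Type*} [Group G] {p : ℕ} (h : PS p G) : Subgroup G where
  carrier := {x | x ^ p = 1}
  one_mem' := one_pow _
  mul_mem' := fun a b => h _ _ a b
  inv_mem' := fun a => by rw [Set.mem_setOf_eq, inv_pow, a, inv_one]

theorem PS.normal {G : Type*} [Group G] {p : ℕ} (h : PS p G) : h.sub.Normal :=
  ⟨fun x (hx : x ^ p = 1) g => show (g * x * g⁻¹) ^ p = 1 by rw [conj_pow, hx]; simp⟩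

theorem PS.two {G : Type*} [Group G] {p q : ℕ} (hc : p.Coprime q) (h : PS p G) (k : PS q G) {x y : G}
    (hx : orderOf x = p) (hy : orderOf y = q) : orderOf (x * y) = p * q := by
  have := Subgroup.commute_of_normal_of_disjoint h.sub k.sub h.normal k.normal
    (Subgroup.disjoint_def.2 fun a b => eq_one_of hc a b) x y (show x ^ p = 1 by rw [← hx, pow_orderOf_eq_one])
    (show y ^ q = 1 by rw [← hy, pow_orderOf_eq_one])
  rw [this.orderOf_mul_eq_mul_orderOf_of_coprime (by rw [hx, hy]; exact hc), hx, hy]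

section
variable {s : ℕ} {p : Fin s → Fin 2 → ℕ}

def TS (p : Fin s → Fin 2 → ℕ) : Set ℕ :=
  {m : ℕ | ∃ c : Fin s → ℕ, (∀ j, c j = 1 ∨ c j = p j 0 ∨ c j = p j 1) ∧ m = ∏ j, c j}

def Good (p : Fin s → Fin 2 → ℕ) (a : Fin s → Fin 2) (G : Type) [Group G] : Prop :=
  Set.range (orderOf : G → ℕ) = TS p ∧ ∀ j, PS (p j (a j)) G

variable (hp : ∀ j i, (p j i).Prime) (hinj : ∀ j i j' i', p j i = p j' i' → j = j' ∧ i = i')
include hp hinj

theorem cop {j j' : Fin s} {i i' : Fin 2} (h : (j, i) ≠ (j', i')) : (p j i).Coprime (p j' i') :=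
  (Nat.coprime_primes (hp _ _) (hp _ _)).2 fun e => h (Prod.ext (hinj _ _ _ _ e).1 (hinj _ _ _ _ e).2)

theorem frob2 (j : Fin s) (i : Fin 2) : ∃ (G : Type) (_ : Group G) (_ : Finite G),
    (∀ g : G, g ^ p j 0 = 1 ∨ g ^ p j 1 = 1) ∧ (∃ g : G, orderOf g = p j 0) ∧ (∃ g : G, orderOf g = p j 1) ∧
      PS (p j i) G := by
  have hne : p j 0 ≠ p j 1 := fun e => absurd (hinj _ _ _ _ e).2 (by decide)
  obtain rfl | rfl : i = 0 ∨ i = 1 := by omega
  · exact frob (hp j 0) (hp j 1) hne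
  · obtain ⟨G, _, _, a, b, c, d⟩ := frob (hp j 1) (hp j 0) hne.symm
    exact ⟨G, inferInstance, inferInstance, fun g => (a g).symm, c, b, d⟩

theorem ord_pi {G : Fin s → Type} [∀ j, Group (G j)] (g : ∀ j, G j)
    (h : ∀ j, orderOf (g j) = 1 ∨ orderOf (g j) = p j 0 ∨ orderOf (g j) = p j 1) : orderOf g = ∏ j, orderOf (g j) := by
  rw [Pi.orderOf, Finset.lcm_eq_prod]
  intro j _ j' _ hne
  have hn : ∀ i i' : Fin 2, (j, i) ≠ (j', i') := fun i i' e => hne (congrArg Prod.fst e)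
  show Nat.Coprime (orderOf (g j)) (orderOf (g j'))
  rcases h j with a | a | a <;> rcases h j' with b | b | b <;> rw [a, b] <;>
    first | exact Nat.coprime_one_left _ | exact Nat.coprime_one_right _ | exact cop hp hinj (hn _ _)

theorem exists_good (a : Fin s → Fin 2) : ∃ (G : Type) (_ : Group G) (_ : Finite G), Good p a G := by
  choose G i1 i2 h1 h2 h3 h4 using fun j => frob2 hp hinj j (a j)
  have ho : ∀ j (g : G j), orderOf g = 1 ∨ orderOf g = p j 0 ∨ orderOf g = p j 1 := fun j g => by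
    rcases h1 j g with e | e
    · exact ((Nat.dvd_prime (hp _ _)).1 (orderOf_dvd_of_pow_eq_one e)).imp id .inl
    · exact ((Nat.dvd_prime (hp _ _)).1 (orderOf_dvd_of_pow_eq_one e)).imp id .inr
  refine ⟨∀ j, G j, inferInstance, inferInstance, ?_, fun j x y hx hy => funext fun j' => ?_⟩
  · ext m
    constructor
    · rintro ⟨g, rfl⟩
      exact ⟨fun j => orderOf (g j), fun j => ho j _, ord_pi hp hinj g fun j => ho j _⟩
    · rintro ⟨c, hc, rfl⟩
      have : ∀ j, ∃ g : G j, orderOf g = c j := fun j => by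
        rcases hc j with e | e | e <;> rw [e]
        exacts [⟨1, orderOf_one⟩, h2 j, h3 j]
      choose g hg using this
      exact ⟨g, by rw [ord_pi hp hinj g fun j => ho j _]; exact Finset.prod_congr rfl fun j _ => hg j⟩
  · have hx' : x j' ^ p j (a j) = 1 := congrFun hx j'
    have hy' : y j' ^ p j (a j) = 1 := congrFun hy j'
    show (x j' * y j') ^ p j (a j) = 1
    by_cases e : j = j'
    · subst e; exact h4 j _ _ hx' hy'
    · have t : ∀ z : G j', z ^ p j (a j) = 1 → z = 1 := fun z hz => (h1 j' z).elim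
        (eq_one_of (cop hp hinj fun e' => e (congrArg Prod.fst e')) hz)
        (eq_one_of (cop hp hinj fun e' => e (congrArg Prod.fst e')) hz)
      rw [t _ hx', t _ hy', one_mul, one_pow]

theorem Good.sec {a : Fin s → Fin 2} {G : Type} [Group G] (h : Good p a G) (H : Subgroup G) (N : Subgroup H) [N.Normal]
    (j : Fin s) : PS (p j (a j)) (H ⧸ N) := by
  classical
  refine (h.2 j).sec (m := ∏ x ∈ Finset.univ.erase (j, a j), p x.1 x.2) (hp _ _).one_lt
    (Nat.Coprime.prod_left fun x hx => cop hp hinj (Finset.ne_of_mem_erase hx)) (fun x => ?_) H N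
  have : orderOf x ∈ TS p := h.1 ▸ ⟨x, rfl⟩
  obtain ⟨c, hc, e⟩ := this
  rw [Finset.prod_erase_mul _ (fun x : Fin s × Fin 2 => p x.1 x.2) (Finset.mem_univ (j, a j)), ← orderOf_dvd_iff_pow_eq_one, e,
    Fintype.prod_prod_type]
  refine Finset.prod_dvd_prod_of_dvd _ _ fun j _ => ?_
  rw [Fin.prod_univ_two]
  rcases hc j with e | e | e <;> rw [e]
  exacts [one_dvd _, dvd_mul_right _ _, dvd_mul_left _ _]

theorem mem_TS (j : Fin s) (i : Fin 2) : p j i ∈ TS p := by
  classical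
  refine ⟨Pi.mulSingle j (p j i), fun j' => ?_, by simp⟩
  by_cases e : j' = j
  · subst e
    obtain rfl | rfl : i = 0 ∨ i = 1 := by omega
    · simp
    · simp
  · simp [e]

theorem not_mem_TS (j : Fin s) : p j 0 * p j 1 ∉ TS p := by
  rintro ⟨c, hc, e⟩
  have t : ∀ i, p j i ∣ ∏ j, c j → c j = p j i := fun i hd => by
    obtain ⟨j', -, h⟩ := ((hp j i).prime.dvd_finset_prod_iff _).1 hd
    rcases hc j' with a | a | a <;> rw [a] at h
    · exact absurd (Nat.dvd_one.1 h) (hp _ _).one_lt.ne'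
    · have := (Nat.prime_dvd_prime_iff_eq (hp _ _) (hp _ _)).1 h
      obtain rfl := (hinj _ _ _ _ this).1
      rw [a, this]
    · have := (Nat.prime_dvd_prime_iff_eq (hp _ _) (hp _ _)).1 h
      obtain rfl := (hinj _ _ _ _ this).1
      rw [a, this]
  have := (t 0 (e ▸ dvd_mul_right _ _)).symm.trans (t 1 (e ▸ dvd_mul_left _ _))
  exact absurd (hinj _ _ _ _ this).2 (by decide)

theorem Good.not_iso {a b : Fin s → Fin 2} {G H : Type} [Group G] [Group H] (h : Good p a G) (k : Good p b H)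
    (hab : a ≠ b) (e : G ≃* H) : False := by
  obtain ⟨j, hj⟩ := Function.ne_iff.1 hab
  have k2 : PS (p j (b j)) G := fun x y hx hy => e.injective (by
    rw [map_pow, map_mul, map_one]
    exact k.2 j _ _ (by rw [← map_pow, hx, map_one]) (by rw [← map_pow, hy, map_one]))
  obtain ⟨x, hx⟩ : p j (a j) ∈ Set.range (orderOf : G → ℕ) := h.1 ▸ mem_TS hp hinj _ _
  obtain ⟨y, hy⟩ : p j (b j) ∈ Set.range (orderOf : G → ℕ) := h.1 ▸ mem_TS hp hinj _ _
  have := (h.2 j).two (cop hp hinj fun e => hj (congrArg Prod.snd e)) k2 hx hy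
  have h3 : p j (a j) * p j (b j) ∈ TS p := h.1 ▸ ⟨_, this⟩
  have : (a j = 0 ∧ b j = 1) ∨ (a j = 1 ∧ b j = 0) := by omega
  rcases this with ⟨u, v⟩ | ⟨u, v⟩ <;> rw [u, v] at h3
  · exact not_mem_TS hp hinj j h3
  · exact not_mem_TS hp hinj j (mul_comm (p j 1) (p j 0) ▸ h3)

theorem exists_crit (a : Fin s → Fin 2) : ∃ (G : Type) (_ : Group G) (_ : Finite G), Good p a G ∧
    ∀ (H : Subgroup G) (N : Subgroup H) [N.Normal], (H ≠ ⊤ ∨ N ≠ ⊥) → Set.range (orderOf : (H ⧸ N) → ℕ) ≠ TS p := by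
  classical
  have ex : ∃ n, ∃ (G : Type) (_ : Group G) (_ : Finite G), Good p a G ∧ Nat.card G = n := by
    obtain ⟨G, _, _, h⟩ := exists_good hp hinj a
    exact ⟨_, G, inferInstance, inferInstance, h, rfl⟩
  obtain ⟨G, _, _, h, hc⟩ := Nat.find_spec ex
  refine ⟨G, inferInstance, inferInstance, h, fun H N _ hne e => ?_⟩
  have h1 : Nat.find ex ≤ Nat.card (H ⧸ N) :=
    Nat.find_min' ex ⟨H ⧸ N, inferInstance, inferInstance, ⟨e, h.sec hp hinj H N⟩, rfl⟩
  have h2 := N.card_eq_card_quotient_mul_card_subgroup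
  have h3 : Nat.card H ≤ Nat.card G := H.card_le_card_group
  have h4 : 0 < Nat.card N := Nat.card_pos
  have h5 : 0 < Nat.card (H ⧸ N) := Nat.card_pos
  rw [← hc] at h1
  have h6 : Nat.card N = 1 := by nlinarith
  rw [h6, mul_one] at h2
  rcases hne with hne | hne
  · exact hne (H.eq_top_of_le_card (by omega))
  · exact hne (N.eq_bot_of_card_eq h6)
end

end Cfsg.Agent.H6.FrP
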