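/- Spectra (sets of element orders) of direct products; tables for words in permutation models. -/
import Cfsg.Agent.H6.J3A
namespace Cfsg.Agent.H6
open MulAction

/-- the maximal element orders of `G` are among `S`, and all of `S` occur -/
def Sp (G : Type*) [Group G] (S : List ℕ) : Prop :=
  (∀ g : G, ∃ e ∈ S, g ^ e = 1) ∧ ∀ e ∈ S, 0 < e ∧ ∃ g : G, orderOf g = e

theorem Sp.range {G : Type*} [Group G] {S : List ℕ} (h : Sp G S) :
    Set.range (orderOf : G → ℕ) = {d | ∃ e ∈ S, d ∣ e} := by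
  ext d
  constructor
  · rintro ⟨g, rfl⟩
    obtain ⟨e, he, h1⟩ := h.1 g
    exact ⟨e, he, orderOf_dvd_of_pow_eq_one h1⟩
  · rintro ⟨e, he, hd⟩
    obtain ⟨h0, g, rfl⟩ := h.2 e he
    exact ⟨g ^ (orderOf g / d), orderOf_pow_orderOf_div h0.ne' hd⟩

def lcms (S T : List ℕ) : List ℕ := S.flatMap fun a => T.map fun b => Nat.lcm a b

theorem Sp.prod {G H : Type*} [Group G] [Group H] {S T : List ℕ} (h : Sp G S) (k : Sp H T) :
    Sp (G × H) (lcms S T) := by
  constructor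
  · rintro ⟨g, g'⟩
    obtain ⟨a, ha, h1⟩ := h.1 g
    obtain ⟨b, hb, h2⟩ := k.1 g'
    refine ⟨Nat.lcm a b, List.mem_flatMap.2 ⟨a, ha, List.mem_map.2 ⟨b, hb, rfl⟩⟩, ?_⟩
    rw [← orderOf_dvd_iff_pow_eq_one, Prod.orderOf_mk]
    exact Nat.lcm_dvd ((orderOf_dvd_of_pow_eq_one h1).trans (Nat.dvd_lcm_left _ _))
      ((orderOf_dvd_of_pow_eq_one h2).trans (Nat.dvd_lcm_right _ _))
  · intro e he
    obtain ⟨a, ha, he⟩ := List.mem_flatMap.1 he
    obtain ⟨b, hb, rfl⟩ := List.mem_map.1 he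
    obtain ⟨h0, g, rfl⟩ := h.2 a ha
    obtain ⟨k0, g', rfl⟩ := k.2 b hb
    exact ⟨Nat.lcm_pos h0 k0, (g, g'), Prod.orderOf_mk⟩

theorem Sp.congr {G H : Type*} [Group G] [Group H] {S : List ℕ} (h : Sp G S) (e : G ≃* H) : Sp H S := by
  refine ⟨fun g => ?_, fun a ha => ?_⟩
  · obtain ⟨a, ha, h1⟩ := h.1 (e.symm g)
    exact ⟨a, ha, by rw [← e.apply_symm_apply g, ← map_pow, h1, map_one]⟩
  · obtain ⟨h0, g, rfl⟩ := h.2 a ha
    exact ⟨h0, e g, e.orderOf_eq g⟩

def domL (S T : List ℕ) : Bool := S.all fun a => T.any fun b => b % a == 0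

theorem Sp.range_eq {G H : Type*} [Group G] [Group H] {S T : List ℕ} (h : Sp G S) (k : Sp H T)
    (h1 : domL S T = true) (h2 : domL T S = true) :
    Set.range (orderOf : G → ℕ) = Set.range (orderOf : H → ℕ) := by
  simp only [domL, List.all_eq_true, List.any_eq_true, beq_iff_eq] at h1 h2
  rw [h.range, k.range]
  ext d
  constructor
  · rintro ⟨e, he, hd⟩
    obtain ⟨b, hb, hh⟩ := h1 e he
    exact ⟨b, hb, hd.trans (Nat.dvd_of_mod_eq_zero hh)⟩
  · rintro ⟨e, he, hd⟩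
    obtain ⟨b, hb, hh⟩ := h2 e he
    exact ⟨b, hb, hd.trans (Nat.dvd_of_mod_eq_zero hh)⟩

theorem dih_r_pow (n : ℕ) (i : ZMod n) : (DihedralGroup.r i : DihedralGroup n) ^ n = 1 := by
  rw [DihedralGroup.r_pow, ZMod.natCast_self, mul_zero]; rfl

theorem sp_dih (n : ℕ) [NeZero n] : Sp (DihedralGroup n) [2, n] := by
  refine ⟨fun g => ?_, fun e he => ?_⟩
  · cases g with
    | r i => exact ⟨n, by simp, dih_r_pow n i⟩
    | sr i => exact ⟨2, by simp, by rw [sq, DihedralGroup.sr_mul_self]⟩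
  · simp only [List.mem_cons, List.not_mem_nil, or_false] at he
    rcases he with rfl | rfl
    · exact ⟨two_pos, _, DihedralGroup.orderOf_sr 0⟩
    · exact ⟨Nat.pos_of_neZero _, _, DihedralGroup.orderOf_r_one⟩

/-- the generalised dihedral group of an elementary abelian `3`-group -/
def gdih (k : ℕ) : Subgroup (Fin (k + 1) → DihedralGroup 3) where
  carrier := {f | (∀ i, ∃ a, f i = .r a) ∨ ∀ i, ∃ a, f i = .sr a}
  one_mem' := .inl fun _ => ⟨0, rfl⟩
  mul_mem' := by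
    rintro f g (hf | hf) (hg | hg)
    · left; intro i; obtain ⟨a, ha⟩ := hf i; obtain ⟨b, hb⟩ := hg i; exact ⟨_, by rw [Pi.mul_apply, ha, hb]; rfl⟩
    · right; intro i; obtain ⟨a, ha⟩ := hf i; obtain ⟨b, hb⟩ := hg i; exact ⟨_, by rw [Pi.mul_apply, ha, hb]; rfl⟩
    · right; intro i; obtain ⟨a, ha⟩ := hf i; obtain ⟨b, hb⟩ := hg i; exact ⟨_, by rw [Pi.mul_apply, ha, hb]; rfl⟩
    · left; intro i; obtain ⟨a, ha⟩ := hf i; obtain ⟨b, hb⟩ := hg i; exact ⟨_, by rw [Pi.mul_apply, ha, hb]; rfl⟩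
  inv_mem' := by
    rintro f (hf | hf)
    · left; intro i; obtain ⟨a, ha⟩ := hf i; exact ⟨_, by rw [Pi.inv_apply, ha]; rfl⟩
    · right; intro i; obtain ⟨a, ha⟩ := hf i; exact ⟨_, by rw [Pi.inv_apply, ha]; rfl⟩

theorem dih_ne : (DihedralGroup.r 1 : DihedralGroup 3) ≠ 1 := by decide

theorem sp_gdih (k : ℕ) : Sp (gdih k) [2, 3] := by
  refine ⟨fun g => ?_, fun e he => ?_⟩
  · rcases g.2 with h | h
    · refine ⟨3, by simp, Subtype.ext (funext fun i => ?_)⟩
      obtain ⟨a, ha⟩ := h i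
      show g.1 i ^ 3 = 1
      rw [ha]; exact dih_r_pow 3 a
    · refine ⟨2, by simp, Subtype.ext (funext fun i => ?_)⟩
      obtain ⟨a, ha⟩ := h i
      show g.1 i ^ 2 = 1
      rw [ha, sq, DihedralGroup.sr_mul_self]
  · simp only [List.mem_cons, List.not_mem_nil, or_false] at he
    rcases he with rfl | rfl
    · refine ⟨two_pos, ⟨fun _ => .sr 0, .inr fun _ => ⟨0, rfl⟩⟩, orderOf_eq_prime (Subtype.ext (funext fun i => ?_)) fun h => ?_⟩
      · show (DihedralGroup.sr 0 : DihedralGroup 3) ^ 2 = 1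
        decide
      · exact absurd (congrFun (congrArg Subtype.val h) 0) (by show (DihedralGroup.sr 0 : DihedralGroup 3) ≠ 1; decide)
    · haveI : Fact (Nat.Prime 3) := ⟨Nat.prime_three⟩
      refine ⟨three_pos, ⟨fun _ => .r 1, .inl fun _ => ⟨1, rfl⟩⟩, orderOf_eq_prime (Subtype.ext (funext fun i => ?_)) fun h => ?_⟩
      · exact dih_r_pow 3 1
      · exact absurd (congrFun (congrArg Subtype.val h) 0) dih_ne

theorem card_gdih (k : ℕ) : k < Nat.card (gdih k) := by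
  have : Nat.card (Fin (k + 1) → ZMod 3) ≤ Nat.card (gdih k) :=
    Nat.card_le_card_of_injective (fun f => ⟨fun i => .r (f i), .inl fun i => ⟨_, rfl⟩⟩) fun f g h => funext fun i =>
      DihedralGroup.r.inj (congrFun (congrArg Subtype.val h) i)
  rw [Nat.card_fun, Nat.card_zmod, Nat.card_eq_fintype_card, Fintype.card_fin] at this
  have h2 : k + 1 < 3 ^ (k + 1) := Nat.lt_pow_self (by norm_num)
  omega

theorem big_spec {J : Type*} [Group J] (h : Sp J [6, 10, 15, 7, 11, 19]) (N : ℕ) :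
    ∃ (H : Type) (_ : Group H) (_ : Fintype H), N < Fintype.card H ∧
      Set.range (orderOf : H → ℕ) = Set.range (orderOf : J × J × J × J → ℕ) := by
  refine ⟨gdih N × DihedralGroup 5 × DihedralGroup 7 × DihedralGroup 11 × DihedralGroup 19, inferInstance,
    Fintype.ofFinite _, ?_, ((sp_gdih N).prod ((sp_dih 5).prod ((sp_dih 7).prod ((sp_dih 11).prod (sp_dih 19))))).range_eq
      (h.prod (h.prod (h.prod h))) (by decide +kernel) (by decide +kernel)⟩
  rw [← @Nat.card_eq_fintype_card _ (Fintype.ofFinite _), Nat.card_prod]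
  exact (card_gdih N).trans_le (Nat.le_mul_of_pos_right _ Nat.card_pos)

theorem mem_of_nodup {G : Type*} [Group G] [Finite G] {K : Subgroup G} {W : List G} (hW : ∀ x ∈ W, x ∈ K)
    (hn : W.Nodup) (hc : Nat.card K ≤ W.length) : ∀ x ∈ K, x ∈ W := by
  classical
  have h : (W.toFinset : Set G) = K := Set.eq_of_subset_of_ncard_le (fun x hx => hW x (by simpa using hx))
    (by rw [Set.ncard_coe_finset, List.toFinset_card_of_nodup hn]; exact hc)
  intro x hx
  have : x ∈ (W.toFinset : Set G) := h ▸ hx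
  simpa using this

noncomputable def tb9 (T x : ℕ) : ℕ := Nat.land (Nat.shiftRight T (Nat.mul 9 x)) 511
noncomputable def tw9 (Ts : ℕ → ℕ) (w : List ℕ) (x : ℕ) : ℕ :=
  List.rec (motive := fun _ => ℕ) x (fun l _ j => seq j (tb9 (Ts l))) w
noncomputable def it9 (Ts : ℕ → ℕ) (w : List ℕ) (e x : ℕ) : ℕ :=
  Nat.rec (motive := fun _ => ℕ) x (fun _ j => seq j (tw9 Ts w)) e

section
variable {G Ω : Type*} [Group G] [MulAction G Ω] {N n : ℕ} {X : ℕ → Ω} {g : ℕ → G} {nets : ℕ → Net} {Ts : ℕ → ℕ}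

def TM9 (N n : ℕ) (X : ℕ → Ω) (g : ℕ → G) (Ts : ℕ → ℕ) : Prop :=
  ∀ l < n, ∀ x < N, tb9 (Ts l) x < N ∧ g l • X x = X (tb9 (Ts l) x)

theorem IsPre.tm9 (h : IsPre N X g nets vT)
    (hc : nall (fun l => nall (fun x => band (Nat.ble (Nat.succ (tb9 (Ts l) x)) N)
      (Nat.beq (fnWc nets [l] x) (tb9 (Ts l) x))) N) n = true) : TM9 N n X g Ts := by
  intro l hl x hx
  have := (nall_eq _ _).1 ((nall_eq _ _).1 hc l hl) x hx
  rw [band_eq, ble_eq] at this
  refine ⟨this.1, ?_⟩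
  have h2 := h.smul_of_mp (Mp.of_chk this.2) hx
  simpa using h2

noncomputable def okw (n : ℕ) (w : List ℕ) : Bool := lall (fun l => Nat.ble (Nat.succ l) n) w

theorem TM9.w (h : TM9 N n X g Ts) {w : List ℕ} (hw : okw n w = true) {x : ℕ} (hx : x < N) :
    tw9 Ts w x < N ∧ wp g w • X x = X (tw9 Ts w x) := by
  rw [okw, lall_eq] at hw
  induction w with
  | nil => exact ⟨hx, by simp [tw9]⟩
  | cons l w ih =>
    have e : tw9 Ts (l :: w) x = seq (tw9 Ts w x) (tb9 (Ts l)) := rfl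
    obtain ⟨a, b⟩ := ih fun y hy => hw y (List.mem_cons_of_mem _ hy)
    have hl := hw l List.mem_cons_self
    rw [ble_eq] at hl
    rw [e, seq_eq, wp_cons, mul_smul, b]
    exact h l hl _ a

theorem TM9.it (h : TM9 N n X g Ts) {w : List ℕ} (hw : okw n w = true) {x : ℕ} (hx : x < N) (e : ℕ) :
    it9 Ts w e x < N ∧ wp g w ^ e • X x = X (it9 Ts w e x) := by
  induction e with
  | zero => exact ⟨hx, by simp [it9]⟩
  | succ e ih =>
    have e1 : it9 Ts w (e + 1) x = seq (it9 Ts w e x) (tw9 Ts w) := rfl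
    rw [e1, seq_eq, pow_succ', mul_smul, ih.2]
    exact h.w hw ih.1

noncomputable def powc (n : ℕ) (Ts : ℕ → ℕ) (base S : List ℕ) (t w : List ℕ) (e : ℕ) : Bool :=
  band (okw n (lapp t w)) (band (S.any fun f => Nat.beq (Nat.mod f e) 0)
    (lall (fun p => Nat.beq (it9 Ts (lapp t w) e p) p) base))

theorem TM9.powc (h : TM9 N n X g Ts) {base S : List ℕ} (hb : Based N X (⊤ : Subgroup G) base) {t w : List ℕ} {e : ℕ}
    (hc : powc n Ts base S t w e = true) : ∃ f ∈ S, (wp g t * wp g w) ^ f = 1 := by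
  simp only [H6.powc, band_eq, lall_eq, beq_eq, List.any_eq_true] at hc
  obtain ⟨h1, ⟨f, hf, h2⟩, h3⟩ := hc
  obtain ⟨k, rfl⟩ := Nat.dvd_of_mod_eq_zero h2
  refine ⟨_, hf, ?_⟩
  rw [← wp_lapp, pow_mul, hb.2 (wp g (lapp t w) ^ e) trivial fun p hp => by
    rw [(h.it h1 (hb.1 p hp) e).2, h3 p hp], one_pow]
end

noncomputable def incr {α : Type} (f : α → ℕ) (l : List α) : ℕ → Bool :=
  List.rec (motive := fun _ => ℕ → Bool) (fun _ => true)
    (fun a _ ih b => seq (f a) fun v => band (Nat.ble (Nat.succ b) v) (ih v)) l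

theorem incr_spec {α : Type} {f : α → ℕ} {l : List α} {b : ℕ} (h : incr f l b = true) :
    (∀ a ∈ l, b < f a) ∧ (l.map f).Nodup := by
  induction l generalizing b with
  | nil => simp
  | cons a l ih =>
    have e : incr f (a :: l) b = seq (f a) fun v => band (Nat.ble (Nat.succ b) v) (incr f l v) := rfl
    rw [e, seq_eq, band_eq, ble_eq] at h
    obtain ⟨h1, h2⟩ := ih h.2
    refine ⟨List.forall_mem_cons.2 ⟨h.1, fun c hc => lt_trans h.1 (h1 c hc)⟩, ?_⟩
    rw [List.map_cons, List.nodup_cons]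
    refine ⟨fun hm => ?_, h2⟩
    obtain ⟨c, hc, e⟩ := List.mem_map.1 hm
    exact absurd (h1 c hc) (by rw [e]; exact lt_irrefl _)

section
variable {G : Type*} [Group G] [Finite G] {N n : ℕ} [NeZero N] [MulAction G (Fin N)] {g : ℕ → G} {Ts : ℕ → ℕ}

theorem finX_val' {x : ℕ} (h : x < N) : (finX N x).val = x := Nat.mod_eq_of_lt h

theorem TM9.stab (h : TM9 N n (finX N) g Ts) {W : List (List ℕ)}
    (hS : Nat.card (stabilizer G (finX N 0)) ≤ llen W) {p q : ℕ} (hp : p < N) (hq : q < N)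
    (hW : lall (fun w => band (okw n w) (Nat.beq (tw9 Ts w 0) 0)) W = true)
    (hk : incr (fun w => Nat.succ (Nat.add (Nat.mul (tw9 Ts w p) N) (tw9 Ts w q))) W 0 = true) :
    ∀ x ∈ stabilizer G (finX N 0), ∃ w ∈ W, wp g w = x := by
  simp only [lall_eq, band_eq, beq_eq] at hW
  have h0 := Nat.pos_of_neZero N
  have := mem_of_nodup (K := stabilizer G (finX N 0)) (W := W.map (wp g)) (fun x hx => by
    obtain ⟨w, hw, rfl⟩ := List.mem_map.1 hx
    rw [mem_stabilizer_iff, (h.w (hW w hw).1 h0).2, (hW w hw).2]) (by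
    refine List.Nodup.of_map (fun x : G => (x • finX N p).val * N + (x • finX N q).val + 1) ?_
    rw [List.map_map]
    refine (List.map_congr_left fun w hw => ?_) ▸ (incr_spec hk).2
    obtain ⟨a, b⟩ := h.w (hW w hw).1 hp
    obtain ⟨c, d⟩ := h.w (hW w hw).1 hq
    simp only [Function.comp, b, d, finX_val' a, finX_val' c]; rfl) (by rwa [List.length_map, ← llen_eq])
  intro x hx
  exact List.mem_map.1 (this x hx)

theorem TM9.all (h : TM9 N n (finX N) g Ts) {W : List (List ℕ)}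
    (hW : ∀ x ∈ stabilizer G (finX N 0), ∃ w ∈ W, wp g w = x) {U T : List (List ℕ)}
    (hU : nall (fun y => band (okw n (lk [] U y)) (band (Nat.beq (tw9 Ts (lk [] U y) 0) 0)
      (T.any fun t => band (okw n t) (Nat.beq (tw9 Ts t 0) (tw9 Ts (lk [] U y) y))))) N = true) (x : G) :
    ∃ t ∈ T, ∃ w ∈ W, ∃ c : G, c * x * c⁻¹ = wp g t * wp g w := by
  have h0 := Nat.pos_of_neZero N
  have hy := (x • finX N 0).2
  have := (nall_eq _ _).1 hU _ hy
  simp only [band_eq, beq_eq, List.any_eq_true] at this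
  obtain ⟨a, b, t, ht, c, d⟩ := this
  generalize lk [] U (x • finX N 0).val = u at a b d
  have e1 : wp g u • finX N 0 = finX N 0 := by rw [(h.w a h0).2, b]
  have e2 : finX N (x • finX N 0).val = x • finX N 0 := Fin.ext (finX_val' hy)
  obtain ⟨w, hw, e⟩ := hW ((wp g t)⁻¹ * (wp g u * x * (wp g u)⁻¹)) (by
    rw [mem_stabilizer_iff, mul_smul, mul_smul, mul_smul, inv_smul_eq_iff.2 e1.symm, ← e2, (h.w a hy).2, ← d,
      ← (h.w c h0).2, inv_smul_smul])
  exact ⟨t, ht, w, hw, wp g u, by rw [e, mul_inv_cancel_left]⟩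

theorem TM9.exps (h : TM9 N n (finX N) g Ts) {base S : List ℕ} (hb : Based N (finX N) (⊤ : Subgroup G) base)
    {W T : List (List ℕ)} (hA : ∀ x : G, ∃ t ∈ T, ∃ w ∈ W, ∃ c : G, c * x * c⁻¹ = wp g t * wp g w)
    (hT : ∀ t ∈ T, ∃ es, lall2 (H6.powc n Ts base S t) W es = true) (x : G) : ∃ f ∈ S, x ^ f = 1 := by
  obtain ⟨t, ht, w, hw, c, e⟩ := hA x
  obtain ⟨es, he⟩ := hT t ht
  obtain ⟨f, hf, h1⟩ := forall_of_lall2 (P := fun w => ∃ f ∈ S, (wp g t * wp g w) ^ f = 1) he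
    (fun _ _ a => h.powc hb a) w hw
  refine ⟨f, hf, ?_⟩
  rw [← e, conj_pow] at h1
  simpa using h1
end

end Cfsg.Agent.H6
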