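/- Scott's inequality for permutation modules and cycle counts. -/
import Cfsg.Agent.H6.McA
namespace Cfsg.Agent.H6.Mt
open Module LinearMap MulAction

theorem scott {K V : Type*} [Field K] [AddCommGroup V] [Module K V] [FiniteDimensional K V] (P Q : V →ₗ[K] V) :
    finrank K (ker (P - 1)) + finrank K (ker (Q - 1)) + finrank K (ker (P * Q - 1)) +
      finrank K ↥(range (P - 1) ⊔ range (Q - 1)) ≤ 2 * finrank K V + finrank K ↥(ker (P - 1) ⊓ ker (Q - 1)) := by
  let ψ : range (P - 1) × range (Q - 1) →ₗ[K] V := (range (P - 1)).subtype.coprod (P ∘ₗ (range (Q - 1)).subtype)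
  let δ : ker (P * Q - 1) →ₗ[K] ker ψ :=
    (((P - 1).rangeRestrict.prod (Q - 1).rangeRestrict) ∘ₗ (ker (P * Q - 1)).subtype).codRestrict _ fun w => by
      have : P (Q w) - w = 0 := w.2
      simp [ψ, this]
  let ι : ker δ →ₗ[K] ↥(ker (P - 1) ⊓ ker (Q - 1)) :=
    ((ker (P * Q - 1)).subtype ∘ₗ (ker δ).subtype).codRestrict _ fun w => by
      have := congrArg Subtype.val (mem_ker.1 w.2)
      exact ⟨congrArg Subtype.val (congrArg Prod.fst this), congrArg Subtype.val (congrArg Prod.snd this)⟩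
  have h1 := finrank_le_finrank_of_injective (f := ι) fun a b e => by
    have : (ι a : V) = ι b := congrArg _ e
    exact Subtype.ext (Subtype.ext this)
  have h2 := finrank_range_add_finrank_ker δ
  have h3 := Submodule.finrank_le (range δ)
  have h4 := finrank_range_add_finrank_ker ψ
  have h5 : range (P - 1) ⊔ range (Q - 1) ≤ range ψ := sup_le (fun u hu => ⟨(⟨u, hu⟩, 0), by simp [ψ]⟩)
    fun u hu => ⟨(⟨-(P - 1) u, neg_mem ⟨u, rfl⟩⟩, ⟨u, hu⟩), by simp [ψ]⟩
  have h6 := Submodule.finrank_mono h5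
  have h7 := finrank_range_add_finrank_ker (P - 1)
  have h8 := finrank_range_add_finrank_ker (Q - 1)
  rw [finrank_prod] at h4
  omega

variable {α G : Type*} [Fintype α] [DecidableEq α] [Group G] [MulAction G α]
noncomputable def T (α : Type*) [MulAction G α] (g : G) : (α → ℚ) →ₗ[ℚ] (α → ℚ) := funLeft ℚ ℚ (g • ·)
noncomputable def fx (α : Type*) [MulAction G α] (g : G) : ℕ := finrank ℚ (ker (T α g - 1))
omit [Fintype α] [DecidableEq α] in
theorem T_mul (g h : G) : T α (g * h) = T α h * T α g := by ext v a; simp [T, funLeft, mul_smul]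
omit [Fintype α] [DecidableEq α] in
theorem T_app (g : G) (v : α → ℚ) (a : α) : T α g v a = v (g • a) := rfl

theorem perm_scott (o b : α) (tr : ∀ a, a ≠ o → ∃ g : G, g • b = a) {x y : G} (h : Subgroup.closure {x, y} = ⊤) :
    fx α y + fx α x + fx α (x * y) ≤ Fintype.card α + 4 := by
  have s := scott (T α y) (T α x)
  rw [← T_mul, finrank_fintype_fun_eq_card] at s
  have d : finrank ℚ ↥(ker (T α y - 1) ⊓ ker (T α x - 1)) ≤ 2 := by
    have k : ∀ v ∈ ker (T α y - 1) ⊓ ker (T α x - 1), ∀ g : G, ∀ a, v (g • a) = v a := fun v hv g => by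
      induction (h ▸ Subgroup.mem_top g : g ∈ Subgroup.closure {x, y}) using Subgroup.closure_induction with
      | mem g hg =>
        rcases hg with rfl | rfl
        · exact fun a => sub_eq_zero.1 (congrFun (mem_ker.1 hv.2) a)
        · exact fun a => sub_eq_zero.1 (congrFun (mem_ker.1 hv.1) a)
      | one => simp
      | mul g g' _ _ i1 i2 => exact fun a => by rw [mul_smul, i1, i2]
      | inv g _ i => exact fun a => by rw [← i, smul_inv_smul]
    let e : ↥(ker (T α y - 1) ⊓ ker (T α x - 1)) →ₗ[ℚ] ℚ × ℚ :=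
      ((proj o).prod (proj b) : (α → ℚ) →ₗ[ℚ] ℚ × ℚ) ∘ₗ Submodule.subtype _
    have := finrank_le_finrank_of_injective (f := e) ((injective_iff_map_eq_zero _).2 fun v hv => Subtype.ext (funext fun a => by
      by_cases c : a = o
      · rw [c]; exact congrArg Prod.fst hv
      · obtain ⟨g, rfl⟩ := tr a c
        rw [k v v.2]; exact congrArg Prod.snd hv))
    simpa using this
  set W := range (T α y - 1) ⊔ range (T α x - 1)
  have k : ∀ g : G, ∀ v, T α g v - v ∈ W := fun g => by
    induction (h ▸ Subgroup.mem_top g : g ∈ Subgroup.closure {x, y}) using Subgroup.closure_induction with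
    | mem g hg =>
      rcases hg with rfl | rfl
      · exact fun v => Submodule.mem_sup_right ⟨v, rfl⟩
      · exact fun v => Submodule.mem_sup_left ⟨v, rfl⟩
    | one => exact fun v => by rw [show T α (1 : G) v = v from funext fun a => by simp [T_app], sub_self]; exact W.zero_mem
    | mul g g' _ _ i1 i2 =>
      intro v
      have := W.add_mem (i2 (T α g v)) (i1 v)
      rwa [sub_add_sub_cancel, ← Module.End.mul_apply, ← T_mul] at this
    | inv g _ i =>
      intro v
      have := W.neg_mem (i (T α g⁻¹ v))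
      rwa [neg_sub, show T α g (T α g⁻¹ v) = v from funext fun a => by simp [T_app]] at this
  have top : ⊤ ≤ (W ⊔ ℚ ∙ (Pi.single o 1 : α → ℚ)) ⊔ ℚ ∙ (Pi.single b 1 : α → ℚ) := by
    rw [← (Pi.basisFun ℚ α).span_eq, Submodule.span_le]
    rintro _ ⟨a, rfl⟩
    rw [Pi.basisFun_apply]
    by_cases c : a = o
    · rw [c]; exact Submodule.mem_sup_left (Submodule.mem_sup_right (Submodule.mem_span_singleton_self _))
    · obtain ⟨g, rfl⟩ := tr a c
      have e : T α g (Pi.single (g • b) 1) = Pi.single b 1 := funext fun a => by simp [T_app, Pi.single_apply]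
      have := Submodule.sub_mem _ (Submodule.mem_sup_right (Submodule.mem_span_singleton_self (Pi.single b 1 : α → ℚ)))
        (Submodule.mem_sup_left (T := ℚ ∙ (Pi.single b 1 : α → ℚ))
          (Submodule.mem_sup_left (T := ℚ ∙ (Pi.single o 1 : α → ℚ)) (k g (Pi.single (g • b) 1))))
      rwa [e, sub_sub_cancel] at this
  have h1 := Submodule.finrank_mono top
  have h2 := Submodule.finrank_add_le_finrank_add_finrank (W ⊔ ℚ ∙ (Pi.single o 1 : α → ℚ)) (ℚ ∙ (Pi.single b 1 : α → ℚ))
  have h3 := Submodule.finrank_add_le_finrank_add_finrank W (ℚ ∙ (Pi.single o 1 : α → ℚ))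
  rw [finrank_span_singleton (by simp)] at h2 h3
  rw [finrank_top, finrank_fintype_fun_eq_card] at h1
  unfold fx; omega

def Fx (α : Type*) [MulAction G α] (g : G) (k : ℕ) : Prop := ∃ s : Finset α, k ≤ s.card ∧ ∀ a ∈ s, g • a = a

theorem fx_ge [Finite G] {g : G} {p k : ℕ} (ho : orderOf g = p) (h : Fx α g k) :
    Fintype.card α + (p - 1) * k ≤ fx α g * p := by
  classical
  obtain ⟨s, s1, s2⟩ := h
  haveI : Fintype (Subgroup.zpowers g) := Fintype.ofFinite _
  haveI : Fintype (Quotient (orbitRel (Subgroup.zpowers g) α)) := Fintype.ofFinite _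
  have b := sum_card_fixedBy_eq_card_orbits_mul_card_group (Subgroup.zpowers g) α
  have c : Fintype.card (Subgroup.zpowers g) = p := by rw [← Nat.card_eq_fintype_card, Nat.card_zpowers, ho]
  let e : (Quotient (orbitRel (Subgroup.zpowers g) α) → ℚ) →ₗ[ℚ] ker (T α g - 1) :=
    (funLeft ℚ ℚ (Quotient.mk _)).codRestrict _ fun v => mem_ker.2 (funext fun a => sub_eq_zero.2
      (congrArg v (Quotient.sound (⟨⟨g, Subgroup.mem_zpowers g⟩, rfl⟩ : g • a ∈ orbit (Subgroup.zpowers g) a))))
  have i := finrank_le_finrank_of_injective (f := e) fun u v c =>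
    funLeft_injective_of_surjective ℚ ℚ _ Quotient.mk_surjective (congrArg Subtype.val c)
  rw [finrank_fintype_fun_eq_card] at i
  rw [c, ← Finset.add_sum_erase _ _ (Finset.mem_univ 1)] at b
  have l := Finset.card_nsmul_le_sum (Finset.univ.erase (1 : Subgroup.zpowers g))
    (fun a => Fintype.card (fixedBy α a)) k fun a _ => s1.trans (by
      rw [← Set.toFinset_card]
      refine Finset.card_le_card fun u hu => Set.mem_toFinset.2 ?_
      obtain ⟨a, n, rfl⟩ := a
      exact fixedBy_subset_fixedBy_zpow α g n (s2 u hu))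
  rw [Finset.card_erase_of_mem (Finset.mem_univ _), Finset.card_univ, c, smul_eq_mul] at l
  have o : Fintype.card (fixedBy α (1 : Subgroup.zpowers g)) = Fintype.card α := by simp
  have := Nat.mul_le_mul_right p i
  unfold fx; omega

theorem Fx_mod [Finite G] {g : G} {p : ℕ} (hp : p.Prime) (ho : orderOf g = p) : Fx α g (Fintype.card α % p) := by
  classical
  haveI := Fact.mk hp
  have h : IsPGroup p (Subgroup.zpowers g) := IsPGroup.of_card (n := 1) (by rw [Nat.card_zpowers, ho, pow_one])
  have := h.card_modEq_card_fixedPoints α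
  refine ⟨(fixedPoints (Subgroup.zpowers g) α).toFinset, ?_, fun a ha => Set.mem_toFinset.1 ha ⟨g, Subgroup.mem_zpowers g⟩⟩
  rw [Set.toFinset_card, ← Nat.card_eq_fintype_card, ← Nat.card_eq_fintype_card, this]
  exact Nat.mod_le _ _

omit [Fintype α] in
theorem Fx.conj {g c : G} {k : ℕ} (h : Fx α (c * g * c⁻¹) k) : Fx α g k := by
  obtain ⟨s, s1, s2⟩ := h
  refine ⟨s.image (c⁻¹ • ·), by rwa [Finset.card_image_of_injective _ (MulAction.injective _)], fun a ha => ?_⟩
  obtain ⟨b, hb, rfl⟩ := Finset.mem_image.1 ha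
  have := s2 b hb
  rw [mul_smul, mul_smul, smul_eq_iff_eq_inv_smul] at this
  exact this

theorem syl_conj [Finite G] {g : ℕ → G} {p : ℕ} (hp : p.Prime) {K : Subgroup G} {W : List (List ℕ)} {k : ℕ}
    (hG : (Nat.card G).factorization p = k) (hcl : ∀ x ∈ K, ∃ w ∈ W, wp g w = x) (hW : W.length ≤ p ^ k)
    (lb : p ^ k ≤ Nat.card K) (x : G) (hx : orderOf x = p) : ∃ w ∈ W, ∃ c, wp g w = c * x * c⁻¹ := by
  classical
  haveI := Fact.mk hp
  have h3 : (K : Set G) ⊆ ((W.map (wp g)).toFinset : Set G) := fun x hx => by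
    obtain ⟨w, hw, e⟩ := hcl x hx
    exact Finset.mem_coe.2 (List.mem_toFinset.2 (List.mem_map.2 ⟨w, hw, e⟩))
  have h4 := Set.ncard_le_ncard h3
  rw [Set.ncard_coe_finset] at h4
  have h5 : Nat.card K = p ^ k :=
    le_antisymm (h4.trans ((List.toFinset_card_le _).trans (by rwa [List.length_map]))) lb
  let P : Sylow p G := Sylow.ofCard K (by rw [h5, hG])
  have hp : IsPGroup p (Subgroup.zpowers x) := IsPGroup.of_card (n := 1) (by rw [Nat.card_zpowers, hx, pow_one])
  obtain ⟨Q, hQ⟩ := hp.exists_le_sylow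
  obtain ⟨c, hc⟩ := exists_smul_eq G Q P
  have hm : c * x * c⁻¹ ∈ K := by
    have : c * x * c⁻¹ ∈ (c • Q : Sylow p G) := by
      exact Subgroup.smul_mem_pointwise_smul x (MulAut.conj c) Q (hQ (Subgroup.mem_zpowers x))
    rw [hc] at this
    exact this
  obtain ⟨w, hw, e⟩ := hcl _ hm
  exact ⟨w, hw, c, e⟩

end Cfsg.Agent.H6.Mt
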