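import Cfsg.Agent.H6.MtB1
set_option maxRecDepth 100000
set_option Elab.async false
namespace Cfsg.Agent.H6.SMat
open Cfsg.Agent.H6
universe u

theorem arithM {p q r a b d : ℕ} (s : b + a + d ≤ 24 + 4)
    (a1 : (if p = 2 then 16 else if p = 3 then 12 else if p = 5 then 8 else if p = 7 then 6 else 2) ≤ a)
    (a2 : (if q = 2 then 16 else if q = 3 then 12 else if q = 5 then 8 else if q = 7 then 6 else 2) ≤ b)
    (a3 : (if r = 2 then 16 else if r = 3 then 12 else if r = 5 then 8 else if r = 7 then 6 else 2) ≤ d)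
    (a4 : r ∈ [2,3,5,7,11,23]) (hqr : q ≤ r)
    (hn : (p = 2 ∧ q = 3) ∨ (p = 2 ∧ q = 5 ∧ r = 5) ∨ (p = 2 ∧ q = 5 ∧ r = 7) ∨ (p = 3 ∧ q = 3 ∧ r ≤ 7)) : False := by
  simp only [List.mem_cons, List.not_mem_nil, or_false] at a4
  split_ifs at a1 a2 a3 <;> omega
theorem mainM (p q r : ℕ) (hp : p.Prime) (hq : q.Prime) (hr : r.Prime) (hpq : p ≤ q) (hqr : q ≤ r) (hp2 : ¬ (p = 2 ∧ q = 2))
    (hdvd : p ∣ 10200960 ∧ q ∣ 10200960 ∧ r ∣ 10200960) :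
    Gen p q r ↔ ¬ ((p = 2 ∧ q = 3) ∨ (p = 2 ∧ q = 5 ∧ r = 5) ∨ (p = 2 ∧ q = 5 ∧ r = 7) ∨ (p = 3 ∧ q = 3 ∧ r ≤ 7)) := by
  refine ⟨fun ⟨x, y, z, hx, hy, hz, e, top⟩ hn => ?_, fun hn => ?_⟩
  · have c : Fintype.card GolayPt = 24 := by decide +kernel
    have s := Mt.perm_scott (α := GolayPt) none (pt 0) trM top
    have hz' : orderOf (x * y) = r := by rw [eq_inv_of_mul_eq_one_left e, orderOf_inv, hz]
    have a1 := cyc x (prM hp hdvd.1) hx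
    have a2 := cyc y (prM hq hdvd.2.1) hy
    have a3 := cyc _ (prM hr hdvd.2.2) hz'
    have a4 := prM hr hdvd.2.2
    rw [c] at s
    exact arithM s a1 a2 a3 a4 hqr hn
  · obtain ⟨c, hc, e⟩ := csAll p (prM hp hdvd.1) q (prM hq hdvd.2.1) r (prM hr hdvd.2.2) hpq hqr hp2 hn
    exact cs_spec ((lall_eq _ _).1 csOk c hc) e hp hq hr

end Cfsg.Agent.H6.SMat
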